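import Cfsg.Agent.H678.PV.BlkVan
import Cfsg.Agent.H240.StrongP

/-!
# S4555, S4559: a criterion with a small centraliser

`vOrdP_of_im` : `x` of order `p`, `C(x)` has a character of degree divisible by `p`, `p³` divides `|G|` but not `|C(x)|`.
-/

set_option autoImplicit false

namespace Cfsg.Agent.H185.VO

open Cfsg Subgroup Cfsg.Agent.Blocks.Local Cfsg.Agent.H620.PNorm Cfsg.Agent.H678.PV

universe u

/-- An element of order `p` whose centraliser contains a Sylow `p`-subgroup. -/
theorem exists_full {G : Type u} [Group G] [Finite G] {p : ℕ} [hp : Fact p.Prime] (hd : p ∣ Nat.card G) :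
    ∃ y : G, orderOf y = p ∧ (Nat.card G).factorization p ≤ (Nat.card ↥(centralizer ({y} : Set G))).factorization p := by
  obtain ⟨P⟩ : Nonempty (Sylow p G) := inferInstance
  have hne : (P : Subgroup G) ≠ ⊥ := P.ne_bot_of_dvd_card hd
  obtain ⟨y, hyP, hy, hyc⟩ := H240.StrongP.exists_central_order_p P.isPGroup' hne
  refine ⟨y, hy, ?_⟩
  have hle : (P : Subgroup G) ≤ centralizer ({y} : Set G) := by
    intro g hg
    rw [mem_centralizer_singleton_iff]
    exact hyc g hg
  have h1 := Subgroup.card_dvd_of_le hle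
  rw [P.card_eq_multiplicity] at h1
  exact (hp.out.pow_dvd_iff_le_factorization Nat.card_pos.ne').1 h1

/-- `x` of order `p`, `C(x)` has a character of degree divisible by `p`, `p³` divides `|G|` but not `|C(x)|`. -/
theorem vOrdP_of_im {G : Type u} [Group G] [Finite G] {p : ℕ} [hp : Fact p.Prime] {x : G} (hx : orderOf x = p)
    (h : H33.IM p (centralizer ({x} : Set G))) (hc : ¬ p ^ 3 ∣ Nat.card (centralizer ({x} : Set G)))
    (hG : p ^ 3 ∣ Nat.card G) : VOrdP p G := by
  obtain ⟨M, hM⟩ := Cfsg.Agent.Blocks.Knorr.exists_isPModular p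
  obtain ⟨θ, hθ⟩ := h
  have h1 : (Nat.card (centralizer ({x} : Set G))).factorization p ≤ 2 := by
    by_contra hcon
    push Not at hcon
    exact hc ((hp.out.pow_dvd_iff_le_factorization Nat.card_pos.ne').2 hcon)
  have h2 : 1 ≤ (charDegree (θ : centralizer ({x} : Set G) → ℂ)).factorization p :=
    (hp.out.dvd_iff_one_le_factorization (Cfsg.Agent.Blocks.Basic.charDegree_pos θ.2).ne').1 hθ
  obtain ⟨B, hB, hQ⟩ := exists_block_one hM hx θ (by omega)
  obtain ⟨y, hy, hyc⟩ := exists_full (G := G) (p := p) (dvd_trans (dvd_pow_self p (by norm_num)) hG)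
  refine ⟨y, hy, vz_of_card_ne hM hB hQ ⟨1, by rw [hy, pow_one]⟩ fun z hz hzo heq => ?_⟩
  rw [card_centralizer_zpowers hx hz (hzo.trans hy)] at heq
  have h3 := (hp.out.pow_dvd_iff_le_factorization Nat.card_pos.ne').1 hG
  rw [← heq] at hyc
  omega

end Cfsg.Agent.H185.VO
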